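import Cfsg.Agent.Schreier.PSU

/-!
# S4933, box o.psu.e1: monomial elements of `GU n F q` and the frame stabiliser (helper734)

* `mm σ d` : the matrix `e_j ↦ d_j e_{σ j}`; `mgu`, `msu` the elements of `GU`, `SU`;
* `Mon σ A` : `A ∈ GU` is monomial with permutation `σ`; `MonGU` the monomial subgroup;
* `Fr n F q` : the frame stabiliser in `MulAut (PSU n F q)`.
-/

set_option autoImplicit false

namespace Cfsg.Agent.H734.HT

open Cfsg Matrix Cfsg.Agent.LieClassical.HermSiegel Cfsg.Agent.ClassicalGeometry.PSUAutCount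
  Cfsg.Agent.Schreier.PSU
open Cfsg.Agent.ClassicalGeometry.UnitAutBasic (pr pr_surjective)

variable {F : Type*} [Field F] {q n : ℕ}

/-- the matrix `e_j ↦ d_j e_{σ j}` -/
def mm (σ : Equiv.Perm (Fin n)) (d : Fin n → F) : Matrix (Fin n) (Fin n) F :=
  fun i j => if i = σ j then d j else 0

theorem mm_apply (σ : Equiv.Perm (Fin n)) (d : Fin n → F) (i j : Fin n) :
    mm σ d i j = if i = σ j then d j else 0 := rfl

theorem mm_mulVec (σ : Equiv.Perm (Fin n)) (d : Fin n → F) (v : Fin n → F) (j : Fin n) :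
    (mm σ d *ᵥ v) (σ j) = d j * v j := by
  rw [mulVec, dotProduct, Finset.sum_eq_single j]
  · rw [mm_apply, if_pos rfl]
  · intro k _ hk
    rw [mm_apply, if_neg (fun h => hk (σ.injective h).symm), zero_mul]
  · intro h
    exact absurd (Finset.mem_univ j) h

theorem mm_mul (σ τ : Equiv.Perm (Fin n)) (d e : Fin n → F) :
    mm σ d * mm τ e = mm (σ * τ) (fun j => d (τ j) * e j) := by
  ext i j
  rw [mul_apply, Finset.sum_eq_single (τ j), mm_apply, mm_apply, mm_apply, if_pos rfl, Equiv.Perm.mul_apply]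
  · split_ifs <;> simp
  · intro k _ hk
    rw [mm_apply τ, if_neg hk, mul_zero]
  · intro h
    exact absurd (Finset.mem_univ _) h

theorem mm_one : mm (1 : Equiv.Perm (Fin n)) (fun _ => (1 : F)) = 1 := by
  ext i j
  rw [mm_apply, one_apply, Equiv.Perm.one_apply]

theorem mm_diag (d : Fin n → F) : mm 1 d = diagonal d := by
  ext i j
  rw [mm_apply, Equiv.Perm.one_apply, diagonal_apply]
  split_ifs with h
  · rw [h]
  · rfl

theorem det_mm (σ : Equiv.Perm (Fin n)) (d : Fin n → F) :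
    (mm σ d).det = (Equiv.Perm.sign σ : ℤ) * ∏ j, d j := by
  have h1 : mm σ d = mm σ (fun _ => (1 : F)) * diagonal d := by
    rw [← mm_diag, mm_mul]
    congr 1
    funext j
    rw [one_mul]
  have h2 : mm σ (fun _ => (1 : F)) = (σ⁻¹).permMatrix F := by
    ext i j
    rw [mm_apply, Equiv.Perm.permMatrix, PEquiv.toMatrix_apply, Equiv.toPEquiv_apply]
    congr 1
    rw [Option.mem_def, Option.some_inj]
    exact propext ⟨fun h => by rw [h]; exact σ.symm_apply_apply j, fun h => by rw [← h]; exact (σ.apply_symm_apply i).symm⟩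
  rw [h1, det_mul, det_diagonal, h2, det_permutation, Equiv.Perm.sign_inv]

theorem herm_mm (σ : Equiv.Perm (Fin n)) (d : Fin n → F) (hd : ∀ i, d i * d i ^ q = 1) (u v : Fin n → F) :
    hermForm n F q (mm σ d *ᵥ u) (mm σ d *ᵥ v) = hermForm n F q u v := by
  unfold hermForm
  rw [← Equiv.sum_comp σ]
  refine Finset.sum_congr rfl fun j _ => ?_
  rw [mm_mulVec, mm_mulVec, mul_pow]
  linear_combination (u j * v j ^ q) * hd j

theorem mm_inv (σ : Equiv.Perm (Fin n)) (d : Fin n → F) (hd : ∀ i, d i ≠ 0) :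
    mm σ d * mm σ⁻¹ (fun j => (d (σ⁻¹ j))⁻¹) = 1 := by
  rw [mm_mul, mul_inv_cancel, ← mm_one]
  congr 1
  funext j
  exact mul_inv_cancel₀ (hd _)

theorem mm_inv' (σ : Equiv.Perm (Fin n)) (d : Fin n → F) (hd : ∀ i, d i ≠ 0) :
    mm σ⁻¹ (fun j => (d (σ⁻¹ j))⁻¹) * mm σ d = 1 := by
  rw [mm_mul, inv_mul_cancel, ← mm_one]
  congr 1
  funext j
  have h1 : σ⁻¹ (σ j) = j := σ.symm_apply_apply j
  rw [h1]
  exact inv_mul_cancel₀ (hd _)

theorem ne_zero_of_norm {c : F} (h : c * c ^ q = 1) : c ≠ 0 := by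
  rintro rfl
  rw [zero_mul] at h
  exact zero_ne_one h

/-- the monomial element of `GU` -/
def mgu (σ : Equiv.Perm (Fin n)) (d : Fin n → F) (hd : ∀ i, d i * d i ^ q = 1) : GU n F q :=
  ⟨⟨mm σ d, mm σ⁻¹ (fun j => (d (σ⁻¹ j))⁻¹), mm_inv σ d fun i => ne_zero_of_norm (hd i),
    mm_inv' σ d fun i => ne_zero_of_norm (hd i)⟩, fun u v => herm_mm σ d hd u v⟩

theorem gm_mgu (σ : Equiv.Perm (Fin n)) (d : Fin n → F) (hd : ∀ i, d i * d i ^ q = 1) :
    gm (mgu σ d hd) = mm σ d := rfl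

theorem norm_mul {a b : F} (ha : a * a ^ q = 1) (hb : b * b ^ q = 1) : (a * b) * (a * b) ^ q = 1 := by
  rw [mul_pow]
  linear_combination (b * b ^ q) * ha + hb

theorem mgu_mul (σ τ : Equiv.Perm (Fin n)) (d e : Fin n → F) (hd : ∀ i, d i * d i ^ q = 1)
    (he : ∀ i, e i * e i ^ q = 1) : mgu σ d hd * mgu τ e he =
      mgu (σ * τ) (fun j => d (τ j) * e j) (fun i => norm_mul (hd (τ i)) (he i)) :=
  gm_inj (by rw [gm_mul, gm_mgu, gm_mgu, gm_mgu, mm_mul])

/-- the monomial element of `SU` -/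
def msu (σ : Equiv.Perm (Fin n)) (d : Fin n → F) (hd : ∀ i, d i * d i ^ q = 1)
    (h1 : ((Equiv.Perm.sign σ : ℤ) : F) * ∏ j, d j = 1) : SU n F q :=
  mkSU (mm σ d) (by rw [det_mm, h1]) (fun u v => herm_mm σ d hd u v)

theorem mat_msu (σ : Equiv.Perm (Fin n)) (d : Fin n → F) (hd : ∀ i, d i * d i ^ q = 1)
    (h1 : ((Equiv.Perm.sign σ : ℤ) : F) * ∏ j, d j = 1) : mat (msu σ d hd h1) = mm σ d := rfl

theorem f₁_mgu (σ : Equiv.Perm (Fin n)) (d : Fin n → F) (hd : ∀ i, d i * d i ^ q = 1)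
    (h1 : ((Equiv.Perm.sign σ : ℤ) : F) * ∏ j, d j = 1) :
    f₁ (mgu σ d hd) = MulAut.conj (pr n F q (msu σ d hd h1)) := f₁_eq_conj _ _ rfl

/-! ### Monomial elements -/

/-- `A` is monomial with permutation `σ` -/
def Mon (σ : Equiv.Perm (Fin n)) (A : GU n F q) : Prop := ∀ i j, gm A i j ≠ 0 → i = σ j

theorem Mon.mgu (σ : Equiv.Perm (Fin n)) (d : Fin n → F) (hd : ∀ i, d i * d i ^ q = 1) : Mon σ (mgu σ d hd) := by
  intro i j h
  by_contra hne
  apply h
  rw [gm_mgu, mm_apply, if_neg hne]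

theorem Mon.eq_mm {σ : Equiv.Perm (Fin n)} {A : GU n F q} (h : Mon σ A) : gm A = mm σ (fun j => gm A (σ j) j) := by
  ext i j
  rw [mm_apply]
  split_ifs with hi
  · rw [hi]
  · by_contra hne
    exact hi (h i j hne)

theorem gm_mulVec_single (A : GU n F q) (i j : Fin n) : (gm A *ᵥ Pi.single j 1) i = gm A i j := by
  simp

/-- the entries have norm one -/
theorem Mon.norm {σ : Equiv.Perm (Fin n)} {A : GU n F q} (h : Mon σ A) (j : Fin n) :
    gm A (σ j) j * gm A (σ j) j ^ q = 1 := by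
  have h1 := herm_gm A (Pi.single j 1) (Pi.single j 1)
  unfold hermForm at h1
  rw [Finset.sum_eq_single (σ j), Finset.sum_eq_single j, gm_mulVec_single, Pi.single_eq_same, one_pow, mul_one] at h1
  · exact h1
  · intro k _ hk
    rw [Pi.single_eq_of_ne hk, zero_mul]
  · intro h
    exact absurd (Finset.mem_univ _) h
  · intro k _ hk
    rw [gm_mulVec_single]
    by_contra hne
    apply hk
    apply h k j
    intro h0
    rw [h0, zero_mul] at hne
    exact hne rfl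
  · intro h
    exact absurd (Finset.mem_univ _) h

theorem Mon.eq_mgu {σ : Equiv.Perm (Fin n)} {A : GU n F q} (h : Mon σ A)  :
    A = H734.HT.mgu σ (fun j => gm A (σ j) j) (h.norm) := gm_inj h.eq_mm

theorem Mon.one : Mon 1 (1 : GU n F q) := by
  intro i j h
  by_contra hne
  apply h
  rw [gm_one, one_apply, if_neg (show ¬ i = j from hne)]

theorem Mon.mul {σ τ : Equiv.Perm (Fin n)} {A B : GU n F q} (hA : Mon σ A) (hB : Mon τ B) : Mon (σ * τ) (A * B) := by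
  intro i j h
  rw [gm_mul, hA.eq_mm, hB.eq_mm, mm_mul, mm_apply] at h
  by_contra hne
  rw [if_neg hne] at h
  exact h rfl

theorem Mon.entry_mul {σ τ : Equiv.Perm (Fin n)} {A B : GU n F q} (hA : Mon σ A) (hB : Mon τ B) (j : Fin n) :
    gm (A * B) ((σ * τ) j) j = gm A (σ (τ j)) (τ j) * gm B (τ j) j := by
  rw [gm_mul]
  conv_lhs => rw [hA.eq_mm, hB.eq_mm, mm_mul, mm_apply, if_pos rfl]

/-- the permutation is unique -/
theorem Mon.uniq {σ τ : Equiv.Perm (Fin n)} {A : GU n F q} (h : Mon σ A) (h' : Mon τ A) : σ = τ := by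
  ext j
  have h1 : ∃ i, gm A i j ≠ 0 := by
    by_contra hno
    push Not at hno
    have h2 := congrFun (congrFun (gm_inv_mul A) j) j
    rw [mul_apply, one_apply_eq, Finset.sum_eq_zero (fun k _ => by rw [hno k, mul_zero])] at h2
    exact zero_ne_one h2
  obtain ⟨i, hi⟩ := h1
  rw [← h i j hi, ← h' i j hi]

theorem Mon.inv {σ : Equiv.Perm (Fin n)} {A : GU n F q} (h : Mon σ A)  : Mon σ⁻¹ A⁻¹ := by
  have h0 : ∀ j, gm A (σ j) j ≠ 0 := fun j => ne_zero_of_norm (h.norm j)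
  have h1 : gm A⁻¹ = mm σ⁻¹ (fun j => (gm A (σ (σ⁻¹ j)) (σ⁻¹ j))⁻¹) := by
    have h2 := mm_inv σ (fun j => gm A (σ j) j) h0
    rw [← h.eq_mm] at h2
    calc gm A⁻¹ = gm A⁻¹ * (gm A * mm σ⁻¹ (fun j => (gm A (σ (σ⁻¹ j)) (σ⁻¹ j))⁻¹)) := by rw [h2, Matrix.mul_one]
      _ = _ := by rw [← Matrix.mul_assoc, gm_inv_mul, Matrix.one_mul]
  intro i j hij
  by_contra hne
  apply hij
  rw [h1, mm_apply, if_neg hne]

theorem gm_map (ρ : F ≃+* F) (A : GU n F q) (i j : Fin n) : gm (mapGU ρ A) i j = ρ (gm A i j) := rfl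

theorem Mon.map {σ : Equiv.Perm (Fin n)} {A : GU n F q} (h : Mon σ A) (ρ : F ≃+* F) : Mon σ (mapGU ρ A) := by
  intro i j hij
  apply h i j
  intro h0
  apply hij
  rw [gm_map, h0, map_zero]

theorem Mon.smul {σ : Equiv.Perm (Fin n)} {A B : GU n F q} (h : Mon σ A) {c : F} (hc : gm B = c • gm A) : Mon σ B := by
  intro i j hij
  apply h i j
  intro h0
  apply hij
  rw [hc, Matrix.smul_apply, h0, smul_zero]

/-- the monomial subgroup of `GU` -/
def MonGU (n : ℕ) (F : Type*) [Field F] (q : ℕ)  : Subgroup (GU n F q) where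
  carrier := {A | ∃ σ, Mon σ A}
  one_mem' := ⟨1, Mon.one⟩
  mul_mem' := by
    rintro A B ⟨σ, hA⟩ ⟨τ, hB⟩
    exact ⟨σ * τ, hA.mul hB⟩
  inv_mem' := by
    rintro A ⟨σ, hA⟩
    exact ⟨σ⁻¹, hA.inv⟩

/-! ### The frame stabiliser -/

theorem toAut_mul (A B : GU n F q) (ρ τ : F ≃+* F) : toAut A ρ * toAut B τ = toAut (A * mapGU ρ B) (ρ * τ) := by
  rw [toAut_eq, toAut_eq, toAut_eq, map_mul, map_mul, ← conj_field]
  group

theorem toAut_one : toAut (1 : GU n F q) 1 = 1 := by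
  rw [toAut_eq, map_one, map_one, one_mul]

theorem mapGU_one (A : GU n F q) : mapGU 1 A = A := gm_inj (by ext i j; rw [gm_map]; rfl)

theorem mapGU_mul (ρ : F ≃+* F) (A B : GU n F q) : mapGU ρ (A * B) = mapGU ρ A * mapGU ρ B :=
  gm_inj (by
    ext i j
    rw [gm_map, gm_mul, gm_mul, mul_apply, mul_apply, map_sum]
    refine Finset.sum_congr rfl fun k _ => ?_
    rw [map_mul, gm_map, gm_map])

theorem mapGU_inv (ρ : F ≃+* F) (A : GU n F q) : mapGU ρ A⁻¹ = (mapGU ρ A)⁻¹ := by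
  rw [eq_inv_iff_mul_eq_one, ← mapGU_mul, inv_mul_cancel]
  exact gm_inj (by ext i j; rw [gm_map, gm_one, one_apply]; split_ifs <;> simp)

theorem mapGU_map (ρ τ : F ≃+* F) (A : GU n F q) : mapGU ρ (mapGU τ A) = mapGU (ρ * τ) A := rfl

theorem toAut_inv (A : GU n F q) (ρ : F ≃+* F) : (toAut A ρ)⁻¹ = toAut (mapGU ρ⁻¹ A⁻¹) ρ⁻¹ := by
  rw [inv_eq_iff_mul_eq_one, toAut_mul, mapGU_map, mul_inv_cancel, mapGU_one, mul_inv_cancel, toAut_one]

/-- the stabiliser of the standard orthogonal frame -/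
def Fr (n : ℕ) (F : Type*) [Field F] (q : ℕ)  : Subgroup (MulAut (PSU n F q)) where
  carrier := {x | ∃ σ A ρ, Mon σ A ∧ x = toAut A ρ}
  one_mem' := ⟨1, 1, 1, Mon.one, toAut_one.symm⟩
  mul_mem' := by
    rintro _ _ ⟨σ, A, ρ, hA, rfl⟩ ⟨τ, B, ρ', hB, rfl⟩
    exact ⟨σ * τ, _, _, hA.mul (hB.map ρ), toAut_mul A B ρ ρ'⟩
  inv_mem' := by
    rintro _ ⟨σ, A, ρ, hA, rfl⟩
    exact ⟨σ⁻¹, _, _, (hA.inv).map _, toAut_inv A ρ⟩

theorem mem_Fr  {x : MulAut (PSU n F q)} :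
    x ∈ Fr n F q ↔ ∃ σ A ρ, Mon σ A ∧ x = toAut A ρ := Iff.rfl

end Cfsg.Agent.H734.HT
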